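import Mathlib

set_option autoImplicit false

/-! A family of subgroups of order `p` satisfying the Buekenhout-Shult type axioms has a central member. -/

namespace Cfsg.Agent.GeoMax.OneAll

variable {G : Type*} [Group G]

/-- data for a set `E` of elements of order `p` -/
structure Dat (p : ℕ) (E : Set G) : Prop where
  hp : p.Prime
  ord : ∀ x ∈ E, orderOf x = p
  conj : ∀ x ∈ E, ∀ g : G, g * x * g⁻¹ ∈ E
  mul : ∀ x ∈ E, ∀ y ∈ E, Commute x y → ∀ i j : ℤ, x ^ i * y ^ j ≠ 1 → x ^ i * y ^ j ∈ E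
  one_all : ∀ x ∈ E, ∀ y ∈ E, Commute x y → (∀ k : ℤ, x ≠ y ^ k) → ∀ w ∈ E,
    ∃ i j : ℤ, x ^ i * y ^ j ≠ 1 ∧ Commute (x ^ i * y ^ j) w

variable {p : ℕ} {E : Set G}

lemma Dat.ne_one (h : Dat p E) {x : G} (hx : x ∈ E) : x ≠ 1 := by
  rintro rfl
  have := h.ord 1 hx
  rw [orderOf_one] at this
  exact h.hp.one_lt.ne this

lemma Dat.zpow_mem (h : Dat p E) {x : G} (hx : x ∈ E) {i : ℤ} (hi : x ^ i ≠ 1) : x ^ i ∈ E := by
  have := h.mul x hx x hx (Commute.refl x) i 0 (by simpa using hi)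
  simpa using this

/-- a nontrivial power of an element of order `p` generates -/
lemma Dat.exists_zpow (h : Dat p E) {x : G} (hx : x ∈ E) {i : ℤ} (hi : x ^ i ≠ 1) : ∃ k : ℤ, (x ^ i) ^ k = x := by
  have hni : ¬ (p : ℤ) ∣ i := by
    rw [← h.ord x hx]
    intro hd
    exact hi (orderOf_dvd_iff_zpow_eq_one.1 hd)
  obtain ⟨a, b, hab⟩ := ((Nat.prime_iff_prime_int.1 h.hp).irreducible.coprime_iff_not_dvd).2 hni
  refine ⟨b, ?_⟩
  have h1 : i * b = 1 - p * a := by linear_combination hab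
  rw [← zpow_mul, h1, zpow_sub, zpow_one, zpow_mul]
  have h2 : x ^ (p : ℤ) = 1 := by
    rw [zpow_natCast, ← h.ord x hx, pow_orderOf_eq_one]
  rw [h2, one_zpow, inv_one, mul_one]

lemma Dat.comm_of_zpow (h : Dat p E) {x y : G} (hx : x ∈ E) {i : ℤ} (hi : x ^ i ≠ 1) (hc : Commute (x ^ i) y) :
    Commute x y := by
  obtain ⟨k, hk⟩ := h.exists_zpow hx hi
  rw [← hk]
  exact hc.zpow_left k

/-- the configuration gives a universal element -/
lemma Dat.universal_of_config (h : Dat p E) {x y w u : G} (hx : x ∈ E) (hy : y ∈ E) (hw : w ∈ E) (hu : u ∈ E)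
    (hxy : Commute x y) (hxw : Commute x w) (hwu : Commute w u) (huy : Commute u y) (hxu : ¬ Commute x u)
    (hwy : ¬ Commute w y) : ∃ c ∈ E, ∀ r ∈ E, Commute c r := by
  -- the third point of `xy`
  have hz1 : x * y ≠ 1 := by
    intro h0
    have : x = y⁻¹ := eq_inv_of_mul_eq_one_left h0
    exact hxu (this ▸ huy.symm.inv_left)
  have hz : x * y ∈ E := by
    have := h.mul x hx y hy hxy 1 1 (by simpa using hz1)
    simpa using this
  have hwuk : ∀ k : ℤ, w ≠ u ^ k := by
    intro k hk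
    exact hwy (hk ▸ huy.zpow_left k)
  obtain ⟨i, j, hij, hc⟩ := h.one_all w hw u hu hwu hwuk (x * y) hz
  have hi : w ^ i ≠ 1 := by
    intro h0
    rw [h0, one_mul] at hc hij
    have h1 : Commute u (x * y) := h.comm_of_zpow hu hij hc
    have h2 : Commute u (x * y * y⁻¹) := h1.mul_right huy.inv_right
    rw [mul_inv_cancel_right] at h2
    exact hxu h2.symm
  have hj : u ^ j ≠ 1 := by
    intro h0
    rw [h0, mul_one] at hc hij
    have h1 : Commute w (x * y) := h.comm_of_zpow hw hij hc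
    have h2 : Commute w (x⁻¹ * (x * y)) := (hxw.symm.inv_right).mul_right h1
    rw [inv_mul_cancel_left] at h2
    exact hwy h2
  -- replace `w`, `u` by powers
  set w' := w ^ i with hw'
  set u' := u ^ j with hu'
  have hw'E : w' ∈ E := h.zpow_mem hw hi
  have hu'E : u' ∈ E := h.zpow_mem hu hj
  have hxw' : Commute x w' := hxw.zpow_right i
  have hwu' : Commute w' u' := hwu.zpow_zpow i j
  have huy' : Commute u' y := huy.zpow_left j
  have hwy' : ¬ Commute w' y := fun hh => hwy (h.comm_of_zpow hw hi hh)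
  clear_value w' u'
  -- the commutator
  set c := w'⁻¹ * y⁻¹ * w' * y with hcdef
  have hc2 : c = x * u' * x⁻¹ * u'⁻¹ := by
    have e1 : w' * u' * (x * y) = x * y * (w' * u') := hc
    have e2 : (w' * y) * (u' * x) = (y * w') * (x * u') := by
      calc (w' * y) * (u' * x) = w' * (y * u') * x := by group
        _ = w' * (u' * y) * x := by rw [huy'.eq]
        _ = w' * u' * (y * x) := by group
        _ = w' * u' * (x * y) := by rw [hxy.eq]
        _ = x * y * (w' * u') := e1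
        _ = (x * y) * w' * u' := by group
        _ = (y * x) * w' * u' := by rw [hxy.eq]
        _ = y * (x * w') * u' := by group
        _ = y * (w' * x) * u' := by rw [hxw'.eq]
        _ = (y * w') * (x * u') := by group
    calc c = (y * w')⁻¹ * ((w' * y) * (u' * x)) * (u' * x)⁻¹ := by rw [hcdef]; group
      _ = (y * w')⁻¹ * ((y * w') * (x * u')) * (u' * x)⁻¹ := by rw [e2]
      _ = x * u' * x⁻¹ * u'⁻¹ := by group
  have hcw : Commute c w' := by
    rw [hc2]
    exact (((hxw'.mul_left hwu'.symm).mul_left hxw'.inv_left).mul_left hwu'.symm.inv_left)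
  have hcy : Commute c y := by
    rw [hc2]
    exact (((hxy.mul_left huy').mul_left hxy.inv_left).mul_left huy'.inv_left)
  have hc1 : c ≠ 1 := by
    intro h0
    apply hwy'
    have : w' * y = y * w' := by
      calc w' * y = y * w' * (w'⁻¹ * y⁻¹ * w' * y) := by group
        _ = y * w' := by rw [← hcdef, h0, mul_one]
    exact this
  have hcE : c ∈ E := by
    have h1 : y⁻¹ * w' * y ∈ E := by
      have := h.conj w' hw'E y⁻¹
      rwa [inv_inv] at this
    have h2 : y⁻¹ * w' * y = w' * c := by rw [hcdef]; group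
    have h3 : Commute w' (y⁻¹ * w' * y) := by
      rw [h2]
      exact (Commute.refl w').mul_right hcw.symm
    have h4 := h.mul w' hw'E _ h1 h3 (-1) 1
    rw [h2] at h4
    have h5 : w' ^ (-1 : ℤ) * (w' * c) ^ (1 : ℤ) = c := by
      rw [zpow_neg_one, zpow_one, inv_mul_cancel_left]
    rw [h5] at h4
    exact h4 hc1
  refine ⟨c, hcE, ?_⟩
  intro r hr
  have key : ∀ v ∈ E, Commute c v → (∀ k : ℤ, c ≠ v ^ k) → Commute c r ∨ ∃ i j : ℤ, v ^ j ≠ 1 ∧ Commute (c ^ i * v ^ j) r := by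
    intro v hv hcv hne
    obtain ⟨i, j, hij, hc⟩ := h.one_all c hcE v hv hcv hne r hr
    by_cases hvj : v ^ j = 1
    · left
      rw [hvj, mul_one] at hc hij
      exact h.comm_of_zpow hcE hij hc
    · right; exact ⟨i, j, hvj, hc⟩
  have hcnw : ∀ k : ℤ, c ≠ w' ^ k := by
    intro k hk
    have h1 : w' ^ k ≠ 1 := hk ▸ hc1
    exact hwy' (h.comm_of_zpow hw'E h1 (hk ▸ hcy))
  have hcny : ∀ k : ℤ, c ≠ y ^ k := by
    intro k hk
    have h1 : y ^ k ≠ 1 := hk ▸ hc1
    exact hwy' (h.comm_of_zpow hy h1 (hk ▸ hcw)).symm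
  rcases key w' hw'E hcw hcnw with h1 | ⟨i1, j1, hj1, h1⟩
  · exact h1
  rcases key y hy hcy hcny with h2 | ⟨i2, j2, hj2, h2⟩
  · exact h2
  -- commutator of `w'^j1` and `y^j2`
  have hwyc : w' * y = y * w' * c := by rw [hcdef]; group
  have hpow1 : ∀ n : ℕ, w' ^ n * y = y * w' ^ n * c ^ n := by
    intro n
    induction n with
    | zero => simp
    | succ n ih =>
      calc w' ^ (n + 1) * y = w' * (w' ^ n * y) := by rw [pow_succ']; group
        _ = w' * (y * w' ^ n * c ^ n) := by rw [ih]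
        _ = (w' * y) * w' ^ n * c ^ n := by group
        _ = y * w' * (c * w' ^ n) * c ^ n := by rw [hwyc]; group
        _ = y * w' * (w' ^ n * c) * c ^ n := by rw [(hcw.pow_right n).eq]
        _ = y * (w' * w' ^ n) * (c * c ^ n) := by group
        _ = y * w' ^ (n + 1) * c ^ (n + 1) := by rw [← pow_succ', ← pow_succ']
  -- use natural exponents
  obtain ⟨n1, hn1⟩ : ∃ n : ℕ, w' ^ j1 = w' ^ n := by
    refine ⟨(j1 % p).toNat, ?_⟩
    have hpos : (0 : ℤ) < p := by exact_mod_cast h.hp.pos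
    rw [← zpow_natCast, Int.toNat_of_nonneg (Int.emod_nonneg _ hpos.ne'), ← h.ord w' hw'E]
    exact (zpow_mod_orderOf w' j1).symm
  obtain ⟨n2, hn2⟩ : ∃ n : ℕ, y ^ j2 = y ^ n := by
    refine ⟨(j2 % p).toNat, ?_⟩
    have hpos : (0 : ℤ) < p := by exact_mod_cast h.hp.pos
    rw [← zpow_natCast, Int.toNat_of_nonneg (Int.emod_nonneg _ hpos.ne'), ← h.ord y hy]
    exact (zpow_mod_orderOf y j2).symm
  rw [hn1] at h1 hj1
  rw [hn2] at h2 hj2
  have hpow2 : ∀ m : ℕ, w' ^ n1 * y ^ m = y ^ m * w' ^ n1 * c ^ (n1 * m) := by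
    intro m
    induction m with
    | zero => simp
    | succ m ih =>
      calc w' ^ n1 * y ^ (m + 1) = (w' ^ n1 * y ^ m) * y := by rw [pow_succ]; group
        _ = y ^ m * w' ^ n1 * (c ^ (n1 * m) * y) := by rw [ih]; group
        _ = y ^ m * w' ^ n1 * (y * c ^ (n1 * m)) := by rw [(hcy.pow_left _).eq]
        _ = y ^ m * (w' ^ n1 * y) * c ^ (n1 * m) := by group
        _ = y ^ m * (y * w' ^ n1 * c ^ n1) * c ^ (n1 * m) := by rw [hpow1]
        _ = (y ^ m * y) * w' ^ n1 * (c ^ n1 * c ^ (n1 * m)) := by group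
        _ = y ^ (m + 1) * w' ^ n1 * c ^ (n1 * (m + 1)) := by
          rw [← pow_succ, ← pow_add, mul_add, mul_one, add_comm n1]
  have hcn : c ^ (n1 * n2) ≠ 1 := by
    intro h0
    rw [← orderOf_dvd_iff_pow_eq_one, h.ord c hcE, h.hp.dvd_mul] at h0
    rcases h0 with h0 | h0
    · apply hj1
      rw [← orderOf_dvd_iff_pow_eq_one, h.ord w' hw'E]; exact h0
    · apply hj2
      rw [← orderOf_dvd_iff_pow_eq_one, h.ord y hy]; exact h0
  -- the commutator of the two elements commuting with `r`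
  set a := c ^ i1 * w' ^ n1 with ha
  set b := c ^ i2 * y ^ n2 with hb
  have hcomm : Commute (a⁻¹ * b⁻¹ * a * b) r :=
    (((h1.inv_left).mul_left h2.inv_left).mul_left h1).mul_left h2
  have hval : a⁻¹ * b⁻¹ * a * b = c ^ (n1 * n2) := by
    have e1 : a * b = b * a * c ^ (n1 * n2) := by
      have c1 : Commute (c ^ i1) (c ^ i2) := (Commute.refl c).zpow_zpow i1 i2
      have c2 : Commute (c ^ i1) (y ^ n2) := (hcy.pow_right n2).zpow_left i1
      have c3 : Commute (w' ^ n1) (c ^ i2) := ((hcw.symm.pow_left n1).zpow_right i2)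
      calc a * b = c ^ i1 * (w' ^ n1 * c ^ i2) * y ^ n2 := by rw [ha, hb]; group
        _ = c ^ i1 * (c ^ i2 * w' ^ n1) * y ^ n2 := by rw [c3.eq]
        _ = (c ^ i1 * c ^ i2) * (w' ^ n1 * y ^ n2) := by group
        _ = (c ^ i2 * c ^ i1) * (y ^ n2 * w' ^ n1 * c ^ (n1 * n2)) := by rw [c1.eq, hpow2]
        _ = c ^ i2 * (c ^ i1 * y ^ n2) * w' ^ n1 * c ^ (n1 * n2) := by group
        _ = c ^ i2 * (y ^ n2 * c ^ i1) * w' ^ n1 * c ^ (n1 * n2) := by rw [c2.eq]
        _ = b * a * c ^ (n1 * n2) := by rw [ha, hb]; group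
    calc a⁻¹ * b⁻¹ * a * b = (b * a)⁻¹ * (a * b) := by group
      _ = (b * a)⁻¹ * (b * a * c ^ (n1 * n2)) := by rw [e1]
      _ = c ^ (n1 * n2) := by group
  rw [hval] at hcomm
  apply h.comm_of_zpow hcE (i := ((n1 * n2 : ℕ) : ℤ)) (by rw [zpow_natCast]; exact hcn)
  rw [zpow_natCast]; exact hcomm

theorem Dat.exists_universal (h : Dat p E) (hex : ∃ x ∈ E, ∃ y ∈ E, Commute x y ∧ ∀ k : ℤ, x ≠ y ^ k) :
    ∃ c ∈ E, ∀ r ∈ E, Commute c r := by
  by_contra hcon
  push Not at hcon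
  obtain ⟨x, hx, y, hy, hxy, hne⟩ := hex
  obtain ⟨w, hw, hxw⟩ := hcon x hx
  obtain ⟨i, j, hij, hc⟩ := h.one_all x hx y hy hxy hne w hw
  set x1 := x ^ i * y ^ j with hx1
  have hx1E : x1 ∈ E := h.mul x hx y hy hxy i j hij
  have hx1x : Commute x1 x := ((Commute.refl x).zpow_left i).mul_left (hxy.symm.zpow_left j)
  -- now `x1 ~ x`, `w ~ x1`, `w ≁ x`
  obtain ⟨u, hu, hx1u⟩ := hcon x1 hx1E
  have hne1 : ∀ k : ℤ, x1 ≠ x ^ k := by
    intro k hk
    exact hxw (h.comm_of_zpow hx (hk ▸ hij) (hk ▸ hc))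
  have hne2 : ∀ k : ℤ, x1 ≠ w ^ k := by
    intro k hk
    exact hxw (h.comm_of_zpow hw (hk ▸ hij) (hk ▸ hx1x)).symm
  obtain ⟨i2, j2, hij2, hc2⟩ := h.one_all x1 hx1E x hx hx1x hne1 u hu
  obtain ⟨i3, j3, hij3, hc3⟩ := h.one_all x1 hx1E w hw hc hne2 u hu
  have hj2 : x ^ j2 ≠ 1 := by
    intro h0
    rw [h0, mul_one] at hc2 hij2
    exact hx1u (h.comm_of_zpow hx1E hij2 hc2)
  have hj3 : w ^ j3 ≠ 1 := by
    intro h0
    rw [h0, mul_one] at hc3 hij3
    exact hx1u (h.comm_of_zpow hx1E hij3 hc3)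
  obtain ⟨c, hcE, hcr⟩ := h.universal_of_config (x := x1) (y := x1 ^ i2 * x ^ j2) (w := x1 ^ i3 * w ^ j3) (u := u)
    hx1E (h.mul x1 hx1E x hx hx1x i2 j2 hij2) (h.mul x1 hx1E w hw hc i3 j3 hij3) hu
    (((Commute.refl x1).zpow_right i2).mul_right (hx1x.zpow_right j2))
    (((Commute.refl x1).zpow_right i3).mul_right (hc.zpow_right j3))
    hc3 hc2.symm hx1u
    (by
      intro hcomm
      -- remove the powers of `x1`
      have e1 : Commute (w ^ j3) (x1 ^ i2 * x ^ j2) := by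
        have : Commute ((x1 ^ i3)⁻¹ * (x1 ^ i3 * w ^ j3)) (x1 ^ i2 * x ^ j2) := by
          refine Commute.mul_left ?_ hcomm
          exact (((Commute.refl x1).zpow_zpow i3 i2).mul_right (hx1x.zpow_zpow i3 j2)).inv_left
        rwa [inv_mul_cancel_left] at this
      have e2 : Commute (w ^ j3) (x ^ j2) := by
        have : Commute (w ^ j3) ((x1 ^ i2)⁻¹ * (x1 ^ i2 * x ^ j2)) :=
          ((hc.symm.zpow_zpow j3 i2).inv_right).mul_right e1
        rwa [inv_mul_cancel_left] at this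
      have e3 : Commute w (x ^ j2) := h.comm_of_zpow hw hj3 e2
      exact hxw (h.comm_of_zpow hx hj2 e3.symm))
  obtain ⟨r, hr, hcr'⟩ := hcon c hcE
  exact hcr' (hcr r hr)

/-- a universal element generates a subgroup inside a normal abelian `p`-subgroup -/
theorem Dat.normal_of_universal (h : Dat p E) {c : G} (hcE : c ∈ E) (hc : ∀ r ∈ E, Commute c r) :
    (Subgroup.normalClosure {c}).Normal ∧ (∀ x ∈ Subgroup.normalClosure {c}, ∀ y ∈ Subgroup.normalClosure {c}, x * y = y * x) ∧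
      ∀ x ∈ Subgroup.normalClosure {c}, x ^ p = 1 := by
  have hS : ∀ x ∈ Group.conjugatesOfSet ({c} : Set G), x ∈ E ∧ ∀ r ∈ E, Commute x r := by
    intro x hx
    rw [Group.mem_conjugatesOfSet_iff] at hx
    obtain ⟨a, ha, hax⟩ := hx
    rw [Set.mem_singleton_iff] at ha
    subst ha
    obtain ⟨g, rfl⟩ := isConj_iff.1 hax
    refine ⟨h.conj a hcE g, fun r hr => ?_⟩
    have h1 := hc _ (h.conj r hr g⁻¹)
    rw [inv_inv] at h1
    show g * a * g⁻¹ * r = r * (g * a * g⁻¹)
    have h2 : a * (g⁻¹ * r * g) = (g⁻¹ * r * g) * a := h1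
    calc g * a * g⁻¹ * r = g * (a * (g⁻¹ * r * g)) * g⁻¹ := by group
      _ = g * ((g⁻¹ * r * g) * a) * g⁻¹ := by rw [h2]
      _ = r * (g * a * g⁻¹) := by group
  have hcomm : ∀ x ∈ Subgroup.normalClosure {c}, ∀ y ∈ Subgroup.normalClosure {c}, x * y = y * x := by
    have h1 : ∀ x ∈ Subgroup.normalClosure {c}, ∀ y ∈ Group.conjugatesOfSet ({c} : Set G), Commute x y := by
      intro x hx y hy
      unfold Subgroup.normalClosure at hx
      induction hx using Subgroup.closure_induction with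
      | mem a ha => exact (hS a ha).2 y (hS y hy).1
      | one => exact Commute.one_left y
      | mul a b _ _ iha ihb => exact iha.mul_left ihb
      | inv a _ iha => exact iha.inv_left
    intro x hx y hy
    unfold Subgroup.normalClosure at hy
    induction hy using Subgroup.closure_induction with
    | mem a ha => exact h1 x hx a ha
    | one => simp
    | mul a b _ _ iha ihb => exact (Commute.mul_right (a := x) iha ihb)
    | inv a _ iha => exact (Commute.inv_right (a := x) iha)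
  refine ⟨inferInstance, hcomm, ?_⟩
  intro x hx
  have hx' := hx
  unfold Subgroup.normalClosure at hx
  induction hx using Subgroup.closure_induction with
  | mem a ha => rw [← h.ord a (hS a ha).1, pow_orderOf_eq_one]
  | one => exact one_pow p
  | mul a b ha hb iha ihb =>
    have : Commute a b := hcomm a ha b hb
    rw [this.mul_pow, iha ha, ihb hb, one_mul]
  | inv a ha iha => rw [inv_pow, iha ha, inv_one]

end Cfsg.Agent.GeoMax.OneAll
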